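import Cfsg.Agent.PByCyclic.Basic
import Mathlib.GroupTheory.SpecificGroups.Alternating
import Mathlib.GroupTheory.SpecificGroups.Cyclic
import Mathlib.GroupTheory.GroupAction.Quotient
import Mathlib.FieldTheory.Finite.Basic

/-!
Groups with normal Sylow 2-subgroup of dihedral type and cyclic quotient.
-/

set_option autoImplicit false

namespace CfsgLib.PByCyclic

variable {G : Type*} [Group G]

/-- The four-group spanned by two commuting involutions. -/
def four (a b : G) (ha : a * a = 1) (hb : b * b = 1) (hab : a * b = b * a) : Subgroup G where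
  carrier := {1, a, b, a * b}
  one_mem' := Or.inl rfl
  mul_mem' := by
    have hba : ∀ c, b * (a * c) = a * (b * c) := fun c => by rw [← mul_assoc, ← hab, mul_assoc]
    have haa : ∀ c, a * (a * c) = c := fun c => by rw [← mul_assoc, ha, one_mul]
    intro u v hu hv
    rcases hu with rfl | rfl | rfl | rfl <;> rcases hv with rfl | rfl | rfl | rfl <;>
      simp [ha, hb, ← hab, mul_assoc, hba, haa]
  inv_mem' := by
    intro u hu
    have hai : a⁻¹ = a := inv_eq_of_mul_eq_one_left ha
    have hbi : b⁻¹ = b := inv_eq_of_mul_eq_one_left hb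
    rcases hu with rfl | rfl | rfl | rfl <;> simp [hai, hbi, ← hab]

theorem mem_four {a b : G} {ha : a * a = 1} {hb : b * b = 1} {hab : a * b = b * a} {x : G} :
    x ∈ four a b ha hb hab ↔ x = 1 ∨ x = a ∨ x = b ∨ x = a * b := by
  rfl

theorem card_four {a b : G} {ha : a * a = 1} {hb : b * b = 1} {hab : a * b = b * a}
    (ha1 : a ≠ 1) (hb1 : b ≠ 1) (hne : a ≠ b) : Nat.card (four a b ha hb hab) = 4 := by
  classical
  have he : (four a b ha hb hab : Set G) = (({1, a, b, a * b} : Finset G) : Set G) := by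
    ext x
    simp [mem_four]
  have hab1 : a * b ≠ 1 := fun h => hne (by
    rw [← inv_eq_of_mul_eq_one_left hb]; exact eq_inv_of_mul_eq_one_left h)
  rw [← SetLike.coe_sort_coe, he, Nat.card_coe_set_eq, Set.ncard_coe_finset]
  rw [Finset.card_insert_of_notMem, Finset.card_insert_of_notMem, Finset.card_pair]
  · exact fun h => ha1 (mul_eq_right.1 h.symm)
  · simp only [Finset.mem_insert, Finset.mem_singleton, not_or]
    exact ⟨hne, fun h => hb1 (mul_eq_left.1 h.symm)⟩
  · simp only [Finset.mem_insert, Finset.mem_singleton, not_or]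
    exact ⟨ha1.symm, hb1.symm, hab1.symm⟩

/-- Subgroups of dihedral groups. -/
theorem dihedral_sub {n : ℕ} [NeZero n] (f : G →* DihedralGroup n) (hf : Function.Injective f) :
    IsCyclic G ∨ ∃ g s : G, s * s = 1 ∧ s * g * s⁻¹ = g⁻¹ ∧ s ∉ Subgroup.zpowers g ∧
      Nat.card G = 2 * orderOf g ∧ ∀ x, x ∉ Subgroup.zpowers g → x * x = 1 := by
  set T := (Subgroup.zpowers (DihedralGroup.r (1 : ZMod n))).comap f with hT
  have hr : ∀ i : ZMod n, DihedralGroup.r i ∈ Subgroup.zpowers (DihedralGroup.r (1 : ZMod n)) :=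
    fun i => Subgroup.mem_zpowers_iff.2 ⟨(i.val : ℤ), by
      rw [zpow_natCast, DihedralGroup.r_one_pow, ZMod.natCast_zmod_val]⟩
  have hsr : ∀ x, x ∉ T → ∃ i, f x = DihedralGroup.sr i := by
    intro x hx
    match h : f x with
    | .r i => exact absurd (show f x ∈ _ by rw [h]; exact hr i) hx
    | .sr i => exact ⟨i, rfl⟩
  haveI : IsCyclic T := isCyclic_of_injective (f.subgroupComap _) fun a b h =>
    Subtype.ext (hf (congrArg Subtype.val h))
  by_cases htop : T = ⊤
  · left
    have : IsCyclic (⊤ : Subgroup G) := htop ▸ (inferInstance : IsCyclic T)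
    exact Subgroup.topEquiv.isCyclic.1 this
  right
  obtain ⟨s, hs⟩ : ∃ s, s ∉ T := by
    by_contra h
    push Not at h
    exact htop (eq_top_iff.2 fun x _ => h x)
  obtain ⟨i, hi⟩ := hsr s hs
  obtain ⟨g, hg⟩ := Subgroup.isCyclic_iff_exists_zpowers_eq_top T |>.1 inferInstance
  have hgT : g ∈ T := hg ▸ Subgroup.mem_zpowers g
  have hsq : ∀ x, x ∉ T → x * x = 1 := fun x hx => hf (by
    obtain ⟨j, hj⟩ := hsr x hx
    rw [map_mul, hj, DihedralGroup.sr_mul_self, map_one])
  refine ⟨g, s, hsq s hs, hf ?_, by rw [hg]; exact hs, ?_, by rw [hg]; exact hsq⟩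
  · obtain ⟨k, hk⟩ := Subgroup.mem_zpowers_iff.1 (show f g ∈ _ from hgT)
    rw [DihedralGroup.r_one_zpow] at hk
    rw [map_mul, map_mul, map_inv, map_inv, hi, ← hk, DihedralGroup.sr_mul_r, DihedralGroup.inv_sr,
      DihedralGroup.sr_mul_sr, DihedralGroup.inv_r]
    congr 1
    abel
  · rw [← Nat.card_zpowers, hg, ← T.card_mul_index]
    have hidx : T.index = 2 := by
      rw [Subgroup.index_eq_two_iff]
      refine ⟨s, fun b => ?_⟩
      by_cases hb : b ∈ T
      · exact Or.inr ⟨hb, fun h => hs ((mul_mem_cancel_left hb).1 h)⟩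
      · refine Or.inl ⟨?_, hb⟩
        obtain ⟨j, hj⟩ := hsr b hb
        show f (b * s) ∈ Subgroup.zpowers (DihedralGroup.r (1 : ZMod n))
        rw [map_mul, hj, hi, DihedralGroup.sr_mul_sr]
        exact hr _
    rw [hidx, mul_comm]

theorem fix_of_cyclic_two [Finite G] {a m : ℕ} {g y : G} (hg : orderOf g = 2 ^ a) (hm : Odd m)
    (hy : y ^ m = 1) (hyg : y * g * y⁻¹ ∈ Subgroup.zpowers g) : y * g * y⁻¹ = g := by
  rcases Nat.eq_zero_or_pos a with rfl | ha
  · rw [pow_zero, orderOf_eq_one_iff] at hg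
    simp [hg]
  obtain ⟨j, hj⟩ := (mem_powers_iff_mem_zpowers.2 hyg)
  have hj' : g ^ j = y * g * y⁻¹ := hj
  have hit : ∀ i : ℕ, y ^ i * g * (y ^ i)⁻¹ = g ^ (j ^ i) := by
    intro i
    induction i with
    | zero => simp
    | succ i ih =>
      calc y ^ (i + 1) * g * (y ^ (i + 1))⁻¹ = y ^ i * (y * g * y⁻¹) * (y ^ i)⁻¹ := by
            rw [pow_succ]; group
        _ = (y ^ i * g * (y ^ i)⁻¹) ^ j := by rw [← hj', conj_pow]
        _ = g ^ (j ^ (i + 1)) := by rw [ih, ← pow_mul, pow_succ]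
  have h1 := hit m
  rw [hy, one_mul, inv_one, mul_one] at h1
  have hmod : ((j : ZMod (2 ^ a))) ^ m = 1 := by
    have := pow_eq_pow_iff_modEq.1 (show g ^ 1 = g ^ (j ^ m) by rw [pow_one]; exact h1)
    rw [hg, ← ZMod.natCast_eq_natCast_iff] at this
    push_cast at this
    exact this.symm
  have hu : IsUnit (j : ZMod (2 ^ a)) := IsUnit.of_pow_eq_one hmod (Nat.ne_of_gt hm.pos)
  obtain ⟨u, hu⟩ := hu
  have hum : u ^ m = 1 := Units.ext (by rw [Units.val_pow_eq_pow_val, hu, hmod, Units.val_one])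
  have hut := ZMod.pow_totient u
  have hco : Nat.Coprime m (Nat.totient (2 ^ a)) := by
    rw [Nat.totient_prime_pow Nat.prime_two ha]
    simpa using (Nat.Coprime.pow_right (a - 1) (Nat.coprime_two_right.2 hm))
  have hu1 : u = 1 := by
    rw [← orderOf_eq_one_iff]
    exact Nat.eq_one_of_dvd_coprimes hco (orderOf_dvd_of_pow_eq_one hum)
      (orderOf_dvd_of_pow_eq_one hut)
  rw [hu1, Units.val_one] at hu
  rw [← hj']
  conv_rhs => rw [← pow_one g]
  rw [pow_eq_pow_iff_modEq, hg, ← ZMod.natCast_eq_natCast_iff]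
  push_cast
  exact hu.symm

theorem nonempty_alternating [Finite G] (hG : Nat.card G = 12) (V : Subgroup G) [V.Normal]
    (hV : Nat.card V = 4) (hself : ∀ y, (∀ v ∈ V, y * v = v * y) → y ∈ V) :
    Nonempty (G ≃* alternatingGroup (Fin 4)) := by
  classical
  haveI : Fact (Nat.Prime 3) := ⟨Nat.prime_three⟩
  obtain ⟨y, hy⟩ := exists_prime_orderOf_dvd_card' (G := G) 3 (by rw [hG]; norm_num)
  set C := Subgroup.zpowers y with hC
  have hCc : Nat.card C = 3 := by rw [hC, Nat.card_zpowers, hy]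
  have hCV : C ⊓ V = ⊥ := Subgroup.inf_eq_bot_of_coprime (by rw [hCc, hV]; norm_num)
  have hcore : C.normalCore = ⊥ := by
    have h1 : Nat.card C.normalCore ∣ 3 := hCc ▸ Subgroup.card_dvd_of_le C.normalCore_le
    rcases (Nat.dvd_prime Nat.prime_three).1 h1 with h | h
    · exact Subgroup.eq_bot_of_card_eq _ h
    · exfalso
      have heq : C.normalCore = C :=
        Subgroup.eq_of_le_of_card_ge C.normalCore_le (by rw [h, hCc])
      have hCn : C.Normal := heq ▸ C.normalCore_normal
      have hyV : y ∈ V := hself y fun v hv => by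
        have h2 : y * v * y⁻¹ * v⁻¹ ∈ C ⊓ V := by
          refine Subgroup.mem_inf.2 ⟨?_, mul_mem ((inferInstance : V.Normal).conj_mem v hv y) (inv_mem hv)⟩
          have := mul_mem (Subgroup.mem_zpowers y)
            (hCn.conj_mem y⁻¹ (C.inv_mem (Subgroup.mem_zpowers y)) v)
          simpa [mul_assoc] using this
        rw [hCV, Subgroup.mem_bot] at h2
        exact mul_inv_eq_iff_eq_mul.1 (mul_inv_eq_one.1 h2)
      have h3 : y ∈ C ⊓ V := ⟨Subgroup.mem_zpowers y, hyV⟩
      rw [hCV, Subgroup.mem_bot] at h3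
      rw [h3, orderOf_one] at hy
      norm_num at hy
  have hQ : Nat.card (G ⧸ C) = 4 := by
    have := C.card_mul_index
    rw [hCc, hG, Subgroup.index_eq_card] at this
    omega
  let θ : G ⧸ C ≃ Fin 4 := Nat.equivFinOfCardPos (by rw [hQ]; norm_num) |>.trans (finCongr hQ)
  let ρ : G →* Equiv.Perm (Fin 4) :=
    (θ.permCongrHom).toMonoidHom.comp (MulAction.toPermHom G (G ⧸ C))
  have hinj : Function.Injective ρ := by
    refine θ.permCongrHom.injective.comp ((MonoidHom.ker_eq_bot_iff _).1 ?_)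
    rw [← Subgroup.normalCore_eq_ker, hcore]
  have hidx : ρ.range.index = 2 := by
    have h1 := ρ.range.card_mul_index
    rw [← Nat.card_congr (MonoidHom.ofInjective hinj).toEquiv, hG, Nat.card_perm, Nat.card_fin] at h1
    norm_num [Nat.factorial] at h1
    omega
  exact ⟨(MonoidHom.ofInjective hinj).trans
    (MulEquiv.subgroupCongr (Equiv.Perm.eq_alternatingGroup_of_index_eq_two hidx))⟩

theorem central_of_cyclic_two [Finite G] (S : Subgroup G) [S.Normal] [IsCyclic S]
    (hS : IsPGroup 2 S) (hidx : Odd S.index) : S ≤ Subgroup.center G := by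
  intro s hs
  rw [Subgroup.mem_center_iff]
  obtain ⟨g, hg⟩ := Subgroup.isCyclic_iff_exists_zpowers_eq_top S |>.1 inferInstance
  have hgS : g ∈ S := hg ▸ Subgroup.mem_zpowers g
  obtain ⟨a, ha⟩ := IsPGroup.iff_card.1 hS
  have hga : orderOf g = 2 ^ a := by rw [← Nat.card_zpowers, hg, ha]
  intro h
  set y := h ^ (2 ^ a) with hy
  have hyi : y ^ S.index = 1 := by
    rw [hy, ← pow_mul, ← ha, S.card_mul_index, pow_card_eq_one']
  have hyg := fix_of_cyclic_two hga hidx hyi (by rw [hg]; exact (inferInstance : S.Normal).conj_mem g hgS y)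
  have hi : h ^ S.index ∈ S := Subgroup.pow_index_mem S h
  have hcomm1 : Commute (h ^ S.index) g := by
    obtain ⟨k, hk⟩ := Subgroup.mem_zpowers_iff.1 (show h ^ S.index ∈ Subgroup.zpowers g by rw [hg]; exact hi)
    rw [← hk]
    exact Commute.zpow_self g k
  have hcomm2 : Commute y g := mul_inv_eq_iff_eq_mul.1 hyg
  have hco : Nat.Coprime (2 ^ a) S.index := Nat.Coprime.pow_left a (Nat.coprime_two_left.2 hidx)
  have hcomm : Commute h g := by
    have hb := Nat.gcd_eq_gcd_ab (2 ^ a) S.index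
    rw [hco.gcd_eq_one] at hb
    rw [← zpow_one h, show (1 : ℤ) = ((1 : ℕ) : ℤ) from rfl, hb, zpow_add, zpow_mul, zpow_mul]
    refine Commute.mul_left (Commute.zpow_left ?_ _) (Commute.zpow_left ?_ _)
    · rw [zpow_natCast]; exact hcomm2
    · rw [zpow_natCast]; exact hcomm1
  obtain ⟨k, hk⟩ := Subgroup.mem_zpowers_iff.1 (show s ∈ Subgroup.zpowers g by rw [hg]; exact hs)
  rw [← hk]
  exact (hcomm.zpow_right k).eq

end CfsgLib.PByCyclic
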